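import Cfsg.Agent.H226.Tall.Defs
import Cfsg.Agent.Lib.Cores

/-!
# S2927: general lemmas in `K` (helper226)

* `both_of_notCP`; `RowOne.congr`, `RowTwo.congr`, `Both.congr`, `NotCP.congr`;
* `rowOne_of_od`, `rowTwo_of_odd`;
* `Fib.exists_fix`, `no2_of_rowTwo`.
-/

set_option autoImplicit false
set_option linter.unusedSectionVars false

namespace Cfsg.Agent.H226.Tall

open Subgroup Cfsg
open Cfsg.Agent.H239.CharPLocal (CP)
open Cfsg.Agent.Lib.Cores

universe u v

section

variable {K : Type u} [Group K] {K' : Type v} [Group K']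

/-- a `p`-group is of characteristic `p` -/
theorem cp_of_isPGroup {H : Type*} [Group H] (h : IsPGroup 2 H) : CP 2 H := by
  have h1 : pCore 2 H = ⊤ := by
    rw [eq_top_iff]
    exact le_pCore inferInstance (h.of_equiv topEquiv.symm)
  unfold CP
  rw [h1]
  exact le_top

theorem both_of_notCP (h : NotCP K) : Both K :=
  ⟨fun z hz hcp => absurd hcp (h z hz), fun z hz hp => h z hz (cp_of_isPGroup hp)⟩

theorem map_centralizer (e : K ≃* K') (z : K) :
    (centralizer ({z} : Set K)).map e.toMonoidHom = centralizer ({e z} : Set K') := by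
  ext y
  rw [Subgroup.mem_map]
  constructor
  · rintro ⟨w, hw, rfl⟩
    rw [mem_centralizer_singleton_iff] at hw ⊢
    have := congrArg e hw
    simpa using this
  · intro hy
    refine ⟨e.symm y, ?_, by simp⟩
    rw [mem_centralizer_singleton_iff] at hy ⊢
    apply e.injective
    simpa using hy

/-- `C_K(z) ≅ C_{K'}(e z)` -/
noncomputable def centEquiv (e : K ≃* K') (z : K) :
    ↥(centralizer ({z} : Set K)) ≃* ↥(centralizer ({e z} : Set K')) :=
  ((centralizer ({z} : Set K)).equivMapOfInjective e.toMonoidHom e.injective).trans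
    (MulEquiv.subgroupCongr (map_centralizer e z))

theorem TwoC.map [Finite K] {z : K} (hz : TwoC z) (e : K ≃* K') : TwoC (e z) := by
  obtain ⟨h1, P, hP⟩ := hz
  have hf : Finite K' := Finite.of_equiv _ e.toEquiv
  have hp2 : Fact (Nat.Prime 2) := ⟨Nat.prime_two⟩
  refine ⟨by rw [← h1]; exact MulEquiv.orderOf_eq e z, ?_⟩
  have hp : IsPGroup 2 ((P : Subgroup K).map e.toMonoidHom) := P.isPGroup'.map _
  have hi : ¬ 2 ∣ ((P : Subgroup K).map e.toMonoidHom).index := by
    rw [index_map_of_bijective e.bijective]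
    exact P.not_dvd_index
  refine ⟨hp.toSylow hi, ?_⟩
  show (P : Subgroup K).map e.toMonoidHom ≤ _
  rw [← map_centralizer e z]
  exact map_mono hP

theorem cp_cent_iff (e : K ≃* K') (z : K) :
    CP 2 ↥(centralizer ({z} : Set K)) ↔ CP 2 ↥(centralizer ({e z} : Set K')) :=
  ⟨fun h => h.of_equiv (centEquiv e z), fun h => h.of_equiv (centEquiv e z).symm⟩

theorem NotCP.congr [Finite K] (h : NotCP K) (e : K ≃* K') : NotCP K' := by
  intro z hz hcp
  have hf : Finite K' := Finite.of_equiv _ e.toEquiv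
  refine h (e.symm z) (hz.map e.symm) ?_
  rw [cp_cent_iff e, MulEquiv.apply_symm_apply]
  exact hcp

theorem RowTwo.congr [Finite K] (h : RowTwo K) (e : K ≃* K') : RowTwo K' := by
  intro z hz hp
  have hf : Finite K' := Finite.of_equiv _ e.toEquiv
  refine h (e.symm z) (hz.map e.symm) ?_
  have h1 := centEquiv e (e.symm z)
  rw [MulEquiv.apply_symm_apply] at h1
  exact hp.of_equiv h1.symm

theorem RowOne.congr [Finite K] (h : RowOne K) (e : K ≃* K') : RowOne K' := by
  intro z hz hcp W hW hzW hCW w hw hα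
  have hf : Finite K' := Finite.of_equiv _ e.toEquiv
  obtain ⟨α, hα⟩ := hα
  have hzz : e (e.symm z) = z := e.apply_symm_apply z
  have h1 := h (e.symm z) (hz.map e.symm) (by rw [cp_cent_iff e, hzz]; exact hcp) (W.comap e.toMonoidHom)
    (by
      intro x hx
      apply e.injective
      rw [map_mul, map_one]
      exact hW _ hx)
    (by
      show e (e.symm z) ∈ W
      rw [hzz]
      exact hzW)
    (by
      intro g hg
      have h2 : e g ∈ centralizer ({z} : Set K') := by
        rw [mem_centralizer_singleton_iff] at hg ⊢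
        have := congrArg e hg
        rwa [map_mul, map_mul, hzz] at this
      have h3 := hCW h2
      rw [mem_normalizer_iff] at h3 ⊢
      intro y
      have h4 := h3 (e y)
      show e y ∈ W ↔ e (g * y * g⁻¹) ∈ W
      rw [map_mul, map_mul, map_inv]
      exact h4)
    (e.symm w) (by
      show e (e.symm w) ∈ W
      rw [e.apply_symm_apply]
      exact hw)
    ⟨(e.trans α).trans e.symm, by
      show e.symm (α (e (e.symm z))) = e.symm w
      rw [hzz, hα]⟩
  exact e.symm.injective h1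

theorem Both.congr [Finite K] (h : Both K) (e : K ≃* K') : Both K' := ⟨h.1.congr e, h.2.congr e⟩

/-- an element of odd order commuting with every 2-central involution -/
theorem rowTwo_of_odd (h : ∀ z : K, TwoC z → ∃ d : K, d * z = z * d ∧ d ≠ 1 ∧ Odd (orderOf d)) : RowTwo K := by
  intro z hz hp
  obtain ⟨d, h1, h2, h3⟩ := h z hz
  obtain ⟨k, hk⟩ := hp ⟨d, mem_centralizer_singleton_iff.2 h1⟩
  have h4 : d ^ 2 ^ k = 1 := congrArg Subtype.val hk
  have h5 : orderOf d ∣ 2 ^ k := orderOf_dvd_of_pow_eq_one h4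
  have h6 : orderOf d = 1 := by
    have h7 : Nat.Coprime (orderOf d) (2 ^ k) := (Nat.Coprime.pow_right k h3.coprime_two_right)
    exact Nat.Coprime.eq_one_of_dvd h7 h5
  exact h2 (orderOf_eq_one_iff.1 h6)

/-- the subgroup generated by the elements of odd order of `C_K(z)` -/
def Od (z : K) : Subgroup K := closure {g | g * z = z * g ∧ Odd (orderOf g)}

theorem Od_map (α : MulAut K) (z : K) : (Od z).map α.toMonoidHom = Od (α z) := by
  unfold Od
  rw [MonoidHom.map_closure]
  congr 1
  ext y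
  constructor
  · rintro ⟨g, ⟨h1, h2⟩, rfl⟩
    refine ⟨?_, ?_⟩
    · show α g * α z = α z * α g
      rw [← map_mul, h1, map_mul]
    · show Odd (orderOf (α g))
      rw [MulEquiv.orderOf_eq]
      exact h2
  · rintro ⟨h1, h2⟩
    refine ⟨α.symm y, ⟨?_, ?_⟩, α.apply_symm_apply y⟩
    · apply α.injective
      rw [map_mul, map_mul]
      show α (α.symm y) * α z = α z * α (α.symm y)
      rw [MulEquiv.apply_symm_apply]
      exact h1
    · rw [MulEquiv.orderOf_eq]
      exact h2

/-- **`RowOne` from `O²(C_K(z))`.** -/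
theorem rowOne_of_od [Finite K] (h : ∀ z : K, TwoC z → CP 2 ↥(centralizer ({z} : Set K)) →
    (∀ W : Subgroup K, (∀ w ∈ W, w * w = 1) → z ∈ W → centralizer ({z} : Set K) ≤ normalizer (W : Set K) →
      ∀ w ∈ W, ∀ g : K, g * z = z * g → Odd (orderOf g) → g * w = w * g) ∧
    z ∈ Od z ∧ ∀ t ∈ Od z, t * t = 1 → (∀ d ∈ Od z, d * t = t * d) → t = 1 ∨ t = z) : RowOne K := by
  rintro z hz hcp W hW hzW hCW w hw ⟨α, hα⟩
  obtain ⟨h1, h2, h3⟩ := h z hz hcp
  have hle : Od z ≤ Od w := by
    unfold Od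
    rw [closure_le]
    rintro g ⟨hg1, hg2⟩
    exact subset_closure ⟨h1 W hW hzW hCW w hw g hg1 hg2, hg2⟩
  have hmap : (Od z).map α.toMonoidHom = Od w := by rw [Od_map, hα]
  have hcard : Nat.card ↥(Od w) = Nat.card ↥(Od z) := by
    rw [← hmap]
    exact Nat.card_congr ((Od z).equivMapOfInjective α.toMonoidHom α.injective).symm.toEquiv
  have heq : Od z = Od w := Subgroup.eq_of_le_of_card_ge hle hcard.le
  have hwO : w ∈ Od z := by
    rw [heq, ← hmap]
    exact ⟨z, h2, hα⟩
  have hwc : ∀ d ∈ Od z, d * w = w * d := by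
    intro d hd
    have h4 : Od z ≤ centralizer ({w} : Set K) := by
      unfold Od
      rw [closure_le]
      rintro g ⟨hg1, hg2⟩
      exact mem_centralizer_singleton_iff.2 (h1 W hW hzW hCW w hw g hg1 hg2)
    exact mem_centralizer_singleton_iff.1 (h4 hd)
  rcases h3 w hwO (hW w hw) hwc with h5 | h5
  · exfalso
    have h6 : z = 1 := by
      apply α.injective
      rw [hα, h5, map_one]
    have h7 := hz.1
    rw [h6, orderOf_one] at h7
    exact absurd h7 (by norm_num)
  · exact h5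

end

section Fib

variable {K : Type u} [Group K] [Finite K] {S₁ : Sylow 2 K} {P V : Subgroup (MulAut K)}

/-- a `P`-invariant involution of `S₁` -/
theorem Loc.exists_fix (h : Loc S₁ P V) : ∃ a ∈ (S₁ : Subgroup K), orderOf a = 2 ∧ ∀ α ∈ P, α a = a := by
  classical
  have hp2 : Fact (Nat.Prime 2) := ⟨Nat.prime_two⟩
  let _ : MulAction P (S₁ : Subgroup K) :=
    { smul := fun α s => ⟨(α : MulAut K) s, h.P_norm α α.2 s s.2⟩
      one_smul := fun s => rfl
      mul_smul := fun α β s => rfl }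
  have hfin : Finite (MulAut K) := inferInstance
  have h1 : 2 ∣ Nat.card (S₁ : Subgroup K) := by
    obtain ⟨R, hR1, hR2, -⟩ := h.loc
    have h2 : IsPGroup 2 (S₁ : Subgroup K) := S₁.isPGroup'
    obtain ⟨n, hn⟩ := IsPGroup.iff_card.1 h2
    rw [hn]
    rcases n with _ | n
    · exfalso
      rw [pow_zero] at hn
      have h3 : (S₁ : Subgroup K) = ⊥ := Subgroup.card_eq_one.1 hn
      rw [h3, le_bot_iff] at hR2
      exact hR1 hR2
    · exact dvd_pow_self 2 (Nat.succ_ne_zero n)
  have h2 : (Nat.card (MulAction.fixedPoints P (S₁ : Subgroup K))) ≡ Nat.card (S₁ : Subgroup K) [MOD 2] :=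
    (h.P_two.card_modEq_card_fixedPoints (S₁ : Subgroup K)).symm
  have h3 : 2 ∣ Nat.card (MulAction.fixedPoints P (S₁ : Subgroup K)) :=
    (Nat.modEq_zero_iff_dvd.1 (h2.trans (Nat.modEq_zero_iff_dvd.2 h1)))
  have hone : (1 : (S₁ : Subgroup K)) ∈ MulAction.fixedPoints P (S₁ : Subgroup K) := by
    intro α
    apply Subtype.ext
    show (α : MulAut K) 1 = 1
    exact map_one _
  have h4 : 1 < Nat.card (MulAction.fixedPoints P (S₁ : Subgroup K)) := by
    have h5 : 0 < Nat.card (MulAction.fixedPoints P (S₁ : Subgroup K)) :=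
      Nat.card_pos_iff.2 ⟨⟨⟨1, hone⟩⟩, inferInstance⟩
    exact lt_of_lt_of_le one_lt_two (Nat.le_of_dvd h5 h3)
  obtain ⟨⟨b, hb⟩, hb1⟩ : ∃ b : MulAction.fixedPoints P (S₁ : Subgroup K), b ≠ ⟨1, hone⟩ := by
    have : Nontrivial (MulAction.fixedPoints P (S₁ : Subgroup K)) := Finite.one_lt_card_iff_nontrivial.1 h4
    exact exists_ne _
  have hbne : (b : K) ≠ 1 := fun h5 => hb1 (Subtype.ext (Subtype.ext h5))
  have hbfix : ∀ α ∈ P, α (b : K) = b := fun α hα => congrArg Subtype.val (hb ⟨α, hα⟩)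
  obtain ⟨k, hk⟩ := S₁.isPGroup' b
  have hk' : (b : K) ^ 2 ^ k = 1 := congrArg Subtype.val hk
  obtain ⟨m, hm1, hm2⟩ := (Nat.dvd_prime_pow Nat.prime_two).1 (orderOf_dvd_of_pow_eq_one hk')
  rcases m with _ | m
  · exfalso
    rw [pow_zero, orderOf_eq_one_iff] at hm2
    exact hbne hm2
  · refine ⟨(b : K) ^ 2 ^ m, pow_mem b.2 _, ?_, fun α hα => by rw [map_pow, hbfix α hα]⟩
    rw [orderOf_pow' _ (by positivity), hm2, Nat.gcd_eq_right (pow_dvd_pow 2 (Nat.le_succ m)), pow_succ,
      Nat.mul_div_cancel_left _ (by positivity)]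

theorem Loc.fix_comm (h : Loc S₁ P V) {a : K} (ha : ∀ α ∈ P, α a = a) :
    (S₁ : Subgroup K) ≤ centralizer ({a} : Set K) := by
  intro s hs
  rw [mem_centralizer_singleton_iff]
  have h1 := ha _ (h.conj_mem s hs)
  rw [MulAut.conj_apply] at h1
  exact mul_inv_eq_iff_eq_mul.1 h1

/-- **`RowTwo` excludes `K` as a component.** -/
theorem Fib.false_of_rowTwo (h : Fib S₁ P V) (hK : RowTwo K) : False := by
  obtain ⟨a, ha1, ha2, ha3⟩ := h.toLoc.exists_fix
  exact hK a ⟨ha2, S₁, h.toLoc.fix_comm ha3⟩ (h.fix a ha1 ha2 ha3)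

end Fib

theorem no2_of_rowTwo : No2.{u} (fun K _ => RowTwo K) := fun h hK => h.false_of_rowTwo hK

end Cfsg.Agent.H226.Tall
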