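import Cfsg.Agent.H226.Tall.Gen
import Cfsg.Agent.H828.KillCP

/-!
# S2927: `NotCP` for `McL`, `Ly`, `Co₃`, `J₁`, `ON` (helper226)

The proofs are those of helper828 (`H828/KillCP.lean`) without the subgroup `L`.
-/

set_option autoImplicit false
set_option linter.unusedSectionVars false

namespace Cfsg.Agent.H226.Tall.Spn

open Subgroup Cfsg Cfsg.Agent.H828 Cfsg.Agent.H828.KillCP Cfsg.Agent.H828.Tools
open Cfsg.Agent.H239.CharPLocal (CP)

universe u

theorem sq_of {K : Type*} [Group K] {z : K} (h : orderOf z = 2) : z * z = 1 := by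
  rw [← pow_two, ← h, pow_orderOf_eq_one]

theorem ne_of {K : Type*} [Group K] {z : K} (h : orderOf z = 2) : z ≠ 1 := by
  rintro rfl
  rw [orderOf_one] at h
  omega

open Cfsg.Agent.TypeM.Two in
theorem mt {K : Type*} [Group K] [Finite K] {n : ℕ} (hn : 5 ≤ n) (M : MT n K) : NotCP K := by
  intro z hz hcp
  obtain ⟨g, hg⟩ := M.one z (sq_of hz.1) (ne_of hz.1)
  have hc := cp_conj (s := z) (t := M.t) (g := g⁻¹) (by rw [← hg]; group) hcp
  let f : ↥(centralizer ({M.t} : Set K)) →* ↥(alternatingGroup (Fin n)) :=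
    M.K.π.codRestrict _ fun x => M.K.mem_alternating x
  have hf : Function.Surjective f := by
    rintro ⟨σ, hσ⟩
    obtain ⟨x, hx⟩ := M.K.exists_lift hσ
    exact ⟨x, Subtype.ext hx⟩
  have hk : f.ker ≤ center _ := by
    intro x hx
    have h1 : M.K.π x = 1 := congrArg Subtype.val (MonoidHom.mem_ker.1 hx)
    rw [mem_center_iff]
    intro y
    rcases (M.K.ker x).1 h1 with h2 | h2
    · rw [h2, mul_one, one_mul]
    · rw [h2]; exact M.K.z_comm y
  have hs : IsSimpleGroup ↥(alternatingGroup (Fin n)) := alternatingGroup.isSimpleGroup (by simpa using hn)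
  refine not_cp_simple (p := 2) ?_ f hf hk hc
  intro hab
  have h5 : (5 : ℕ) ≤ Fintype.card (Fin n) := by simpa using hn
  have h2 : IsMulCommutative ↥(alternatingGroup (Fin n)) := ⟨⟨hab⟩⟩
  have h3 : center ↥(alternatingGroup (Fin n)) = ⊥ := alternatingGroup.center_eq_bot (by rw [Nat.card_fin]; omega)
  have h4 : center ↥(alternatingGroup (Fin n)) = ⊤ := by
    rw [eq_top_iff]
    intro x _
    rw [mem_center_iff]
    intro y
    exact hab y x
  rw [h3] at h4
  exact bot_ne_top h4

theorem notCP_mcl {K : Type u} [Group K] [Finite K] (hK : Spor.IsoMcL K) : NotCP K := by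
  obtain ⟨-, -, -, ⟨M⟩⟩ := TypeM.FactsMcL.facts hK
  exact mt (by norm_num) M

theorem notCP_ly {K : Type u} [Group K] [Finite K] (hK : Spor.IsoLy K) : NotCP K := by
  obtain ⟨-, -, -, ⟨M⟩⟩ := TypeM.FactsLy.facts hK
  exact mt (by norm_num) M

open Cfsg.Agent.CTwoTab.Co3 Cfsg.Agent.SporRec.TwoSp6.Sp Cfsg.Agent.SporRec.TwoSp6.CInvol in
theorem co3_data {X : Type*} {U : Type*} [Group X] [Group U] [Finite X] {t w : X} (D : Data X U t w) : NotCP X := by
  intro z hz hcp
  obtain ⟨g, hg | hg⟩ := D.cls z hz.1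
  · have hc := cp_conj (s := z) (t := t) (g := g⁻¹) (by rw [hg]; group) hcp
    obtain ⟨π, N⟩ := D.ns
    exact not_cp_qs ⊤ inferInstance
      ((SignalizersComponents.Components.isQuasisimple_congr Subgroup.topEquiv.symm).1 (quasi_of_NS N)) hc
  · have hc := cp_conj (s := z) (t := w) (g := g⁻¹) (by rw [hg]; group) hcp
    obtain ⟨f, hf, hk⟩ := D.hom
    have := D.simple
    have hcU := D.card
    have : Finite U := Nat.finite_of_card_ne_zero (by rw [hcU]; norm_num)
    refine not_cp_simple (p := 2) ?_ f hf ?_ hc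
    · intro hab
      let _ : CommGroup U := { (inferInstance : Group U) with mul_comm := hab }
      have h2 : (Nat.card U).Prime := IsSimpleGroup.prime_card
      rw [hcU] at h2
      norm_num at h2
    · intro x hx
      rw [mem_center_iff]
      intro y
      rcases hk x (MonoidHom.mem_ker.1 hx) with h1 | h1
      · rw [h1, mul_one, one_mul]
      · apply Subtype.ext
        have := mem_centralizer_singleton_iff.1 y.2
        change (y : X) * (x : X) = (x : X) * (y : X)
        rw [h1]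
        exact this

theorem notCP_co3 {K : Type u} [Group K] [Finite K] (hK : Spor.IsoCo3 K) : NotCP K := by
  obtain ⟨e⟩ := hK
  obtain ⟨w, D⟩ := CTwoTab.Co3.exists_data
  have := CTwoTab.Co3.finite_G3
  exact (co3_data D).congr (e.trans SporRec.Co3.Model.equivCo3.symm).symm

theorem notCP_j1_model [Finite Spor.J1] : NotCP Spor.J1 := by
  intro z hz hcp
  obtain ⟨D⟩ := UGT.EndJ1.Data.exists_dat
  have : Fact (Nat.Prime 2) := ⟨Nat.prime_two⟩
  have : Fact (Nat.Prime 5) := ⟨by norm_num⟩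
  have hE : Nat.card D.E = 2 ^ (Nat.card Spor.J1).factorization 2 := by
    have h1 : (Nat.card Spor.J1).factorization 2 = 3 := by
      rw [D.card]
      exact Cand.factorization_eq Cand.v_j1 (by decide)
    rw [h1, D.cardE]
    norm_num
  obtain ⟨g, hg⟩ := exists_conj_mem D.E hE (x := z) (k := 1) (by rw [pow_one, ← hz.1, pow_orderOf_eq_one])
  obtain ⟨n, hn⟩ := D.reg _ hg (by
    intro h1
    apply ne_of hz.1
    have := congrArg (fun x => g⁻¹ * x * g) h1
    simpa [mul_assoc] using this)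
  have hc := cp_conj (s := z) (t := D.t) (g := (D.d ^ n)⁻¹ * g) (by
    have : D.t = (D.d ^ n)⁻¹ * (D.d ^ n * D.t * (D.d ^ n)⁻¹) * D.d ^ n := by group
    rw [this, hn]
    group) hcp
  refine not_cp_of_order (r := 5) (b := 3) hc ?_ ?_ (by norm_num) ?_
  · rw [D.card_C]; norm_num
  · rw [D.card_C]; norm_num
  · intro i hi
    interval_cases i <;> norm_num

theorem notCP_j1 {K : Type u} [Group K] [Finite K] (hK : Spor.IsoJ1 K) : NotCP K := by
  obtain ⟨e⟩ := hK
  obtain ⟨D⟩ := UGT.EndJ1.Data.exists_dat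
  have hf : Finite Spor.J1 := D.fin
  exact notCP_j1_model.congr e.symm

theorem notCP_on {K : Type u} [Group K] [Finite K] (hK : Spor.IsoON K) : NotCP K := by
  rintro z ⟨ho, R, hR⟩ hcp
  have hfact : Fact (Nat.Prime 2) := ⟨Nat.prime_two⟩
  obtain ⟨t, v, P, E, S⟩ := KFacts.ON.Sheet.exists_sheet hK
  obtain ⟨Q, hQt, hQc, hQz⟩ := S.basic.syl
  obtain ⟨g, hg⟩ := MulAction.exists_smul_eq K R Q
  -- `z` lies in `R`
  have h1 : z ∈ (R : Subgroup K) := mem_sylow_of_centralizes R (k := 1) (by rw [pow_one, ← ho, pow_orderOf_eq_one]) hR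
  have h2 : g * z * g⁻¹ ∈ (Q : Subgroup K) := by
    rw [← hg, Sylow.coe_subgroup_smul]
    exact ⟨z, h1, rfl⟩
  have h3 : ∀ x ∈ Q, x * (g * z * g⁻¹) = (g * z * g⁻¹) * x := by
    intro x hx
    have hx' : x ∈ (Q : Subgroup K) := hx
    rw [← hg, Sylow.coe_subgroup_smul] at hx'
    obtain ⟨w, hw, rfl⟩ := hx'
    have h4 := mem_centralizer_singleton_iff.1 (hR hw)
    change g * w * g⁻¹ * (g * z * g⁻¹) = g * z * g⁻¹ * (g * w * g⁻¹)
    calc g * w * g⁻¹ * (g * z * g⁻¹) = g * (w * z) * g⁻¹ := by group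
      _ = g * (z * w) * g⁻¹ := by rw [h4]
      _ = _ := by group
  rcases hQz _ h2 h3 with h5 | h5
  · apply ne_of ho
    have := congrArg (fun x => g⁻¹ * x * g) h5
    simpa [mul_assoc] using this
  · have hc := cp_conj h5 hcp
    have hle : P ≤ centralizer ({t} : Set K) := fun x hx => mem_centralizer_singleton_iff.2 (S.basic.cen x hx)
    exact not_cp_qs _ (normal_of_basic S.basic)
      ((SignalizersComponents.Components.isQuasisimple_congr (subgroupOfEquivOfLe hle).symm).1 S.qs) hc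

end Cfsg.Agent.H226.Tall.Spn
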